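import Cfsg.Agent.H180.R7.Fam

/-!
# Counting the centralizer of `g = q s` in `Q ⋊ S` (helper180)

* `card_le_mul` : `|C| ≤ |C ∩ Q| * |(Q C) ∩ C_S(s)|`;
* `exists_conj` : a 2-subgroup of `Q C` is conjugate under `Q` to a subgroup of `C`;
* `card_ref` : the bound for the reflections.
-/

set_option autoImplicit false

namespace Cfsg.Agent.H180.R7

open Subgroup Cfsg.Agent.H841.Ext

variable {X : Type*} [Group X]

/-- a `p`-subgroup of `K` is conjugate in `K` to a subgroup of a subgroup of index prime to `p` (after helper49) -/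
theorem conj_in {K H : Subgroup X} {p : ℕ} [Fact p.Prime] (hk : ¬ p ∣ H.relIndex K)
    {Q : Subgroup X} (hQ : IsPGroup p Q) (hQK : Q ≤ K) : ∃ k ∈ K, ∀ q ∈ Q, k⁻¹ * q * k ∈ H := by
  let φ : Q →* K := inclusion hQK
  let act : MulAction Q (K ⧸ H.subgroupOf K) := MulAction.compHom _ φ
  obtain ⟨x, hx⟩ := hQ.nonempty_fixed_point_of_prime_not_dvd_card (K ⧸ H.subgroupOf K) hk
  obtain ⟨k, rfl⟩ := QuotientGroup.mk_surjective x
  refine ⟨k, k.2, fun q hq => ?_⟩
  have h1 : (φ ⟨q, hq⟩ • (QuotientGroup.mk k : K ⧸ H.subgroupOf K)) = QuotientGroup.mk k := hx ⟨q, hq⟩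
  rw [MulAction.Quotient.smul_mk, eq_comm, QuotientGroup.eq, mem_subgroupOf] at h1
  have h2 : (k : X)⁻¹ * (q * k) ∈ H := h1
  rwa [← mul_assoc] at h2

section

variable [Finite X] {Q S C : Subgroup X} (hn : Q.Normal) (hQS : Q ⊓ S = ⊥) {q s : X} (hq : q ∈ Q) (hs : s ∈ S)
  (hC : C ≤ Q ⊔ S) (hCg : ∀ c ∈ C, Commute c (q * s))

omit [Finite X] in
include hn hQS hq hs hC hCg in
/-- the image of `C` in `S` centralizes `s` -/
theorem le_sup_cent : C ≤ Q ⊔ ((Q ⊔ C) ⊓ (S ⊓ centralizer {s})) := by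
  intro c hc
  obtain ⟨r, hr, b, hb, e⟩ := Subgroup.mem_sup_of_normal_left.1 (hC hc)
  have h1 : b ∈ Q ⊔ C := by
    have : b = r⁻¹ * c := by rw [← e, inv_mul_cancel_left]
    rw [this]
    exact mul_mem (Subgroup.mem_sup_left (inv_mem hr)) (Subgroup.mem_sup_right hc)
  have h2 : b * s * b⁻¹ * s⁻¹ ∈ Q ⊓ S := by
    refine Subgroup.mem_inf.2 ⟨?_, mul_mem (mul_mem (mul_mem hb hs) (inv_mem hb)) (inv_mem hs)⟩
    -- `c g c⁻¹ g⁻¹ = 1`
    have h3 : c * (q * s) * c⁻¹ * (q * s)⁻¹ = 1 := by rw [(hCg c hc).eq]; group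
    rw [← e] at h3
    have h4 : r * (b * q * b⁻¹) * ((b * s * b⁻¹ * s⁻¹) * (s * r⁻¹ * s⁻¹) * q⁻¹) = 1 := by
      rw [← h3]; group
    have h5 : b * s * b⁻¹ * s⁻¹ = (b * q * b⁻¹)⁻¹ * r⁻¹ * (q * (s * r * s⁻¹)) := by
      have h6 : (b * s * b⁻¹ * s⁻¹) * (s * r⁻¹ * s⁻¹) * q⁻¹ = (r * (b * q * b⁻¹))⁻¹ := eq_inv_of_mul_eq_one_right h4
      calc b * s * b⁻¹ * s⁻¹ = ((b * s * b⁻¹ * s⁻¹) * (s * r⁻¹ * s⁻¹) * q⁻¹) * (q * (s * r * s⁻¹)) := by group
        _ = (r * (b * q * b⁻¹))⁻¹ * (q * (s * r * s⁻¹)) := by rw [h6]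
        _ = _ := by group
    rw [h5]
    exact mul_mem (mul_mem (inv_mem (hn.conj_mem q hq b)) (inv_mem hr)) (mul_mem hq (hn.conj_mem r hr s))
  rw [hQS, Subgroup.mem_bot] at h2
  rw [← e]
  refine mul_mem (Subgroup.mem_sup_left hr) (Subgroup.mem_sup_right ⟨h1, hb, mem_centralizer_singleton_iff.2 ?_⟩)
  calc b * s = (b * s * b⁻¹ * s⁻¹) * (s * b) := by group
    _ = s * b := by rw [h2, one_mul]

theorem card_le_mul_aux (hn : Q.Normal) {T : Subgroup X} (h : C ≤ Q ⊔ T) : Nat.card C ≤ Nat.card ↥(C ⊓ Q) * Nat.card T := by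
  have e1 : Nat.card ↥(Q ⊓ C : Subgroup X) * Q.relIndex C = Nat.card C := by
    have := Subgroup.relIndex_mul_relIndex ⊥ (Q ⊓ C) C bot_le inf_le_right
    rwa [relIndex_bot_left, relIndex_bot_left, inf_relIndex_right] at this
  have e2 : Q.relIndex C ≤ Nat.card T := by
    have h0 : Q.relIndex (Q ⊔ T) ≠ 0 := Subgroup.index_ne_zero_of_finite (H := Q.subgroupOf (Q ⊔ T))
    calc Q.relIndex C ≤ Q.relIndex (Q ⊔ T) := Subgroup.relIndex_le_of_le_right h h0
      _ = Q.relIndex T := Subgroup.relIndex_sup_left _ _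
      _ ≤ Nat.card T := Nat.le_of_dvd Nat.card_pos (Subgroup.relIndex_dvd_card _ _)
  rw [← e1, inf_comm]
  exact Nat.mul_le_mul_left _ e2

include hn hQS hq hs hC hCg in
theorem card_le_mul : Nat.card C ≤ Nat.card ↥(C ⊓ Q) * Nat.card ↥((Q ⊔ C) ⊓ (S ⊓ centralizer {s})) :=
  card_le_mul_aux hn (le_sup_cent hn hQS hq hs hC hCg)

/-- conjugating a 2-group into `C` -/
theorem exists_conj (hn : Q.Normal) (hQ : IsPGroup 3 Q) {B : Subgroup X} (hB : IsPGroup 2 B) (hBC : B ≤ Q ⊔ C) :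
    ∃ w ∈ Q, ∀ b ∈ B, w⁻¹ * b * w ∈ C := by
  have : Fact (Nat.Prime 2) := ⟨Nat.prime_two⟩
  have : Fact (Nat.Prime 3) := ⟨Nat.prime_three⟩
  set M := Q ⊔ B with hM
  set C1 := C ⊓ M with hC1
  -- `Q C1 = M`
  have h1 : Q ⊔ C1 = M := by
    apply le_antisymm (sup_le le_sup_left inf_le_right)
    intro m hm
    have h2 : m ∈ Q ⊔ C := (sup_le le_sup_left hBC : Q ⊔ B ≤ Q ⊔ C) hm
    obtain ⟨r, hr, c, hc, e⟩ := Subgroup.mem_sup_of_normal_left.1 h2
    have h3 : c ∈ M := by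
      have : c = r⁻¹ * m := by rw [← e, inv_mul_cancel_left]
      rw [this]
      exact mul_mem (Subgroup.mem_sup_left (inv_mem hr)) hm
    rw [← e]
    exact mul_mem (Subgroup.mem_sup_left hr) (Subgroup.mem_sup_right ⟨hc, h3⟩)
  -- the index
  have h2 : C1.relIndex M ∣ Nat.card Q := by
    have e1 : Nat.card C1 * C1.relIndex M = Nat.card M := by
      have := Subgroup.relIndex_mul_relIndex ⊥ C1 M bot_le inf_le_right
      rwa [relIndex_bot_left, relIndex_bot_left] at this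
    have e2 : Nat.card Q * Q.relIndex M = Nat.card M := by
      have := Subgroup.relIndex_mul_relIndex ⊥ Q M bot_le le_sup_left
      rwa [relIndex_bot_left, relIndex_bot_left] at this
    have e3 : Q.relIndex M = Q.relIndex C1 := by rw [← h1, Subgroup.relIndex_sup_left]
    have e4 : Nat.card ↥(Q ⊓ C1 : Subgroup X) * Q.relIndex C1 = Nat.card C1 := by
      have := Subgroup.relIndex_mul_relIndex ⊥ (Q ⊓ C1) C1 bot_le inf_le_right
      rwa [relIndex_bot_left, relIndex_bot_left, inf_relIndex_right] at this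
    have hpos : 0 < Q.relIndex C1 := Nat.pos_of_ne_zero (Subgroup.index_ne_zero_of_finite (H := Q.subgroupOf C1))
    have e5 : Nat.card ↥(Q ⊓ C1 : Subgroup X) * C1.relIndex M = Nat.card Q := by
      apply Nat.eq_of_mul_eq_mul_right hpos
      calc Nat.card ↥(Q ⊓ C1 : Subgroup X) * C1.relIndex M * Q.relIndex C1
          = (Nat.card ↥(Q ⊓ C1 : Subgroup X) * Q.relIndex C1) * C1.relIndex M := by ring
        _ = Nat.card Q * Q.relIndex C1 := by rw [e4, e1, ← e2, e3]
    exact ⟨_, by rw [mul_comm]; exact e5.symm⟩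
  have h3 : ¬ 2 ∣ C1.relIndex M := by
    intro h
    obtain ⟨n, hn⟩ := hQ.exists_card_eq
    have h4 := h.trans h2
    rw [hn] at h4
    have := Nat.Prime.dvd_of_dvd_pow Nat.prime_two h4
    omega
  obtain ⟨k, hk, hk'⟩ := conj_in h3 hB (le_sup_right : B ≤ M)
  obtain ⟨b0, hb0, w, hw, e⟩ := Subgroup.mem_sup_of_normal_right.1 (show k ∈ B ⊔ Q by rw [sup_comm]; exact hk)
  refine ⟨w, hw, fun b hb => ?_⟩
  have h4 := (hk' (b0 * b * b0⁻¹) (mul_mem (mul_mem hb0 hb) (inv_mem hb0))).1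
  rw [← e] at h4
  have e1 : (b0 * w)⁻¹ * (b0 * b * b0⁻¹) * (b0 * w) = w⁻¹ * b * w := by group
  rwa [e1] at h4

end

/-- commuting involutions -/
theorem closure_comm {t : Fin 5 → X} (ht2 : ∀ i, t i * t i = 1) (htc : ∀ i j, Commute (t i) (t j)) :
    ∀ a ∈ closure (Set.range t), (∀ i, Commute a (t i)) ∧ a * a = 1 := by
  have h1 : ∀ a ∈ closure (Set.range t), ∀ i, Commute a (t i) := by
    intro a ha
    induction ha using Subgroup.closure_induction with
    | mem y hy => obtain ⟨j, rfl⟩ := hy; exact fun i => htc j i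
    | one => exact fun i => Commute.one_left _
    | mul a b _ _ iha ihb => exact fun i => (iha i).mul_left (ihb i)
    | inv a _ iha => exact fun i => (iha i).inv_left
  have h2 : ∀ a ∈ closure (Set.range t), ∀ b ∈ closure (Set.range t), Commute a b := by
    intro a ha b hb
    induction hb using Subgroup.closure_induction with
    | mem y hy => obtain ⟨j, rfl⟩ := hy; exact h1 a ha j
    | one => exact Commute.one_right _
    | mul u v _ _ ihu ihv => exact ihu.mul_right ihv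
    | inv u _ ihu => exact ihu.inv_right
  intro a ha
  refine ⟨h1 a ha, ?_⟩
  induction ha using Subgroup.closure_induction with
  | mem y hy => obtain ⟨j, rfl⟩ := hy; exact ht2 j
  | one => exact one_mul 1
  | mul a b ha hb iha ihb =>
    have h3 := h2 a ha b hb
    calc a * b * (a * b) = a * (b * a) * b := by simp only [mul_assoc]
      _ = a * (a * b) * b := by rw [h3.eq]
      _ = (a * a) * (b * b) := by simp only [mul_assoc]
      _ = 1 := by rw [iha, ihb, one_mul]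
  | inv a _ iha => rw [← mul_inv_rev, iha, inv_one]

/-- **the bound for the reflections** -/
theorem card_ref [Finite X] {Z Q : Subgroup X} {R : Fin 5 → Subgroup X} {t : Fin 5 → X} {s : X} (F : Fam Z Q R)
    (T : Inv Z R t) (A : Act Z R t s) (hn : Q.Normal) {S C : Subgroup X} (hQS : Q ⊓ S = ⊥) (hs : s ∈ S) (hs3 : s ^ 3 = 1)
    {q : X} (hq : q ∈ Q) (hg : (q * s) ^ 3 ≠ 1) (hC : C ≤ Q ⊔ S) (hCg : ∀ c ∈ C, Commute c (q * s))
    (htt : ∀ i j, t i * t j ∈ S) (ht2 : ∀ i, t i * t i = 1) (htc : ∀ i j, Commute (t i) (t j)) {m : ℕ}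
    (hcard : Nat.card ↥(S ⊓ centralizer {s}) ≤ 2 * m) : Nat.card C ≤ 3 ^ 5 * m := by
  have h1 := card_le_mul hn hQS hq hs hC hCg
  have h2 : Nat.card ↥(C ⊓ Q) ≤ 3 ^ 5 := by
    refine le_trans ?_ (Act.card_le F A T hs3 hq hg)
    apply Nat.le_of_dvd Nat.card_pos
    apply Subgroup.card_dvd_of_le
    intro c hc
    exact ⟨mem_centralizer_singleton_iff.2 (hCg c hc.1).eq, hc.2⟩
  have h3 : Nat.card ↥((Q ⊔ C) ⊓ (S ⊓ centralizer {s})) ≤ m := by
    have hdvd : Nat.card ↥((Q ⊔ C) ⊓ (S ⊓ centralizer {s})) ∣ Nat.card ↥(S ⊓ centralizer {s}) :=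
      Subgroup.card_dvd_of_le inf_le_right
    obtain ⟨k, hk⟩ := hdvd
    have hpos : 0 < Nat.card ↥(S ⊓ centralizer {s}) := Nat.card_pos
    rcases Nat.lt_or_ge k 2 with hk2 | hk2
    · exfalso
      have hk1 : k = 1 := by
        interval_cases k
        · omega
        · rfl
      rw [hk1, mul_one] at hk
      have heq : (Q ⊔ C) ⊓ (S ⊓ centralizer {s}) = S ⊓ centralizer {s} :=
        Subgroup.eq_of_le_of_card_ge inf_le_right hk.le
      -- the 2-group
      let B : Subgroup X := closure (Set.range t) ⊓ (S ⊓ centralizer {s})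
      have hB2 : IsPGroup 2 B := by
        intro b
        refine ⟨1, ?_⟩
        rw [pow_one, pow_two]
        exact Subtype.ext (closure_comm ht2 htc b b.2.1).2
      have hBC : B ≤ Q ⊔ C := by
        intro b hb
        have : b ∈ (Q ⊔ C) ⊓ (S ⊓ centralizer {s}) := by rw [heq]; exact hb.2
        exact this.1
      have hQ3 : IsPGroup 3 Q := IsPGroup.of_card F.cQ
      obtain ⟨w, hw, hwB⟩ := exists_conj hn hQ3 hB2 hBC
      -- `w g w⁻¹ = q' s`
      obtain ⟨q', hq'⟩ : ∃ q' : X, q' = w * q * (s * w⁻¹ * s⁻¹) := ⟨_, rfl⟩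
      have hq'Q : q' ∈ Q := by
        rw [hq']
        exact mul_mem (mul_mem hw hq) (hn.conj_mem _ (inv_mem hw) s)
      have e1 : w * (q * s) * w⁻¹ = q' * s := by rw [hq']; group
      have h4 : ∀ i j, i ≠ j → Commute q' (t i * t j) := by
        intro i j hij
        have hb : t i * t j ∈ B := by
          exact ⟨mul_mem (Subgroup.subset_closure ⟨i, rfl⟩) (Subgroup.subset_closure ⟨j, rfl⟩), htt i j,
            mem_centralizer_singleton_iff.2 ((A.st i).mul_right (A.st j)).eq.symm⟩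
        have h5 := hCg _ (hwB _ hb)
        have h6 : Commute (t i * t j) (q' * s) := by
          rw [← e1]
          show t i * t j * (w * (q * s) * w⁻¹) = w * (q * s) * w⁻¹ * (t i * t j)
          calc t i * t j * (w * (q * s) * w⁻¹) = w * ((w⁻¹ * (t i * t j) * w) * (q * s)) * w⁻¹ := by group
            _ = w * ((q * s) * (w⁻¹ * (t i * t j) * w)) * w⁻¹ := by rw [h5.eq]
            _ = _ := by group
        have h7 : Commute (t i * t j) s := ((A.st i).mul_right (A.st j)).symm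
        have h8 := h6.mul_right h7.inv_right
        rw [mul_inv_cancel_right] at h8
        exact h8.symm
      have h9 := Inv.mem_Z F T hq'Q h4
      apply hg
      have h10 : (q' * s) ^ 3 = 1 := by
        rw [(A.cz _ h9).symm.mul_pow, F.esQ.cub _ hq'Q, hs3, one_mul]
      have h11 : (q * s) ^ 3 = w⁻¹ * (q' * s) ^ 3 * w := by
        rw [← e1, conj_pow]; group
      rw [h11, h10]; group
    · have h4 : Nat.card ↥((Q ⊔ C) ⊓ (S ⊓ centralizer {s})) * 2 ≤
          Nat.card ↥((Q ⊔ C) ⊓ (S ⊓ centralizer {s})) * k := Nat.mul_le_mul_left _ hk2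
      rw [← hk] at h4
      omega
  exact h1.trans (Nat.mul_le_mul h2 h3)

end Cfsg.Agent.H180.R7
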