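import Cfsg.Agent.H180.R7.Fam
import Cfsg.Agent.H841.ExtD

/-!
# Five commuting classes of twins (helper180)

For five distinct commuting members `t i` of `T0 D z` the groups `Qc D (t i)` form a family `Fam`, on which the `t i` act as in
`Inv`. An element `s` of `S0` of order three commuting with the `t i` and with an element `f` permuting them cyclically acts as
in `Act`.
-/

set_option autoImplicit false

namespace Cfsg.Agent.H180.R7

open Subgroup
open Cfsg.Agent.LThreeFi24.Comp Cfsg.Agent.LThreeFi24.Twin Cfsg.Agent.H841.Ext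

variable {X : Type*} [Group X] {D : Set X} {x z : X} {d : Fin 5 → X} (H : Dat D x z d)

include H

theorem es_T0 {t : X} (ht : t ∈ T0 D z) : ES (zpowers x) (Qc D t) := by
  obtain ⟨g, -, hg⟩ := H.tr t ht.1 ht.2
  have h1 := H.es.conj g⁻¹ (H.conj_Z g⁻¹) (by
    intro y hy
    have := H.conj_Z g y hy
    rwa [inv_inv])
  rw [Qc_conj H.ts, ← hg] at h1
  have e : g⁻¹ * (g * t * g⁻¹) * g⁻¹⁻¹ = t := by group
  rwa [e] at h1

theorem card_T0 {t : X} (ht : t ∈ T0 D z) : Nat.card (Qc D t) = Nat.card (Qc D (d 0)) := by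
  obtain ⟨g, -, hg⟩ := H.tr t ht.1 ht.2
  have h1 := Qc_conj H.ts t g
  rw [hg] at h1
  rw [← h1]
  exact (Nat.card_congr ((Qc D t).equivMapOfInjective _ (MulAut.conj g).injective).toEquiv)

variable {t : Fin 5 → X} (ht : ∀ i, t i ∈ T0 D z) (hinj : Function.Injective t) (htc : ∀ i j, Commute (t i) (t j))

include ht hinj htc

omit H in
theorem nb_t {i j : Fin 5} (hij : i ≠ j) : t j ∈ Nb D (t i) :=
  ⟨(ht j).1, fun h => hij (hinj h).symm, htc i j⟩

theorem fam [Finite X] (hc : Nat.card (Qc D (d 0)) = 27) (hx : Nat.card (zpowers x) = 3) :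
    Fam (zpowers x) (QQ D) fun i => Qc D (t i) := by
  have hcom : ∀ i j, i ≠ j → ∀ g ∈ Qc D (t i), ∀ r ∈ Qc D (t j), Commute g r := fun i j hij g hg r hr =>
    comm_Qc_Qc (ht i).1 (nb_t ht hinj htc hij) hg hr
  have csup : ∀ {A B C : Subgroup X}, (∀ g ∈ A, ∀ r ∈ C, Commute g r) → (∀ g ∈ B, ∀ r ∈ C, Commute g r) →
      (∀ g ∈ A ⊔ B, ∀ r ∈ C, Commute g r) := by
    intro A B C h1 h2 g hg r hr
    have h3 : A ⊔ B ≤ Subgroup.centralizer ({r} : Set X) := by
      apply sup_le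
      · intro a ha
        rw [Subgroup.mem_centralizer_singleton_iff]
        exact (h1 a ha r hr).eq
      · intro a ha
        rw [Subgroup.mem_centralizer_singleton_iff]
        exact (h2 a ha r hr).eq
    exact Subgroup.mem_centralizer_singleton_iff.1 (h3 hg)
  have k1 := hcom 0 1 (by decide)
  have k2 := csup (hcom 0 2 (by decide)) (hcom 1 2 (by decide))
  have k3 := csup (csup (hcom 0 3 (by decide)) (hcom 1 3 (by decide))) (hcom 2 3 (by decide))
  have k4 := csup (csup (csup (hcom 0 4 (by decide)) (hcom 1 4 (by decide))) (hcom 2 4 (by decide))) (hcom 3 4 (by decide))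
  have es := fun i => es_T0 H (ht i)
  have c27 : ∀ i, Nat.card (Qc D (t i)) = 27 := fun i => (card_T0 H (ht i)).trans hc
  have e1 := (es 0).sup (es 1) k1
  have e2 := e1.sup (es 2) k2
  have e3 := e2.sup (es 3) k3
  have e4 := e3.sup (es 4) k4
  have c1 := (es 0).card_sup (es 1) k1
  have c2 := e1.card_sup (es 2) k2
  have c3 := e2.card_sup (es 3) k3
  have c4 := e3.card_sup (es 4) k4
  rw [hx, c27 0, c27 1] at c1
  rw [hx, c27 2] at c2
  rw [hx, c27 3] at c3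
  rw [hx, c27 4] at c4
  have hsup : (⨆ i, Qc D (t i)) = Qc D (t 0) ⊔ Qc D (t 1) ⊔ Qc D (t 2) ⊔ Qc D (t 3) ⊔ Qc D (t 4) := by
    apply le_antisymm
    · apply iSup_le
      intro i
      fin_cases i
      · exact le_sup_left.trans (le_sup_left.trans (le_sup_left.trans le_sup_left))
      · exact le_sup_right.trans (le_sup_left.trans (le_sup_left.trans le_sup_left))
      · exact le_sup_right.trans (le_sup_left.trans le_sup_left)
      · exact le_sup_right.trans le_sup_left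
      · exact le_sup_right
    · have h := fun i => le_iSup (fun i => Qc D (t i)) i
      exact sup_le (sup_le (sup_le (sup_le (h 0) (h 1)) (h 2)) (h 3)) (h 4)
  have hQ := H.es_card hc hx
  have hle : (⨆ i, Qc D (t i)) ≤ QQ D := iSup_le fun i => Qc_le (ht i).1
  have heq : (⨆ i, Qc D (t i)) = QQ D := by
    apply Subgroup.eq_of_le_of_card_ge hle
    rw [hQ.2, hsup]
    omega
  exact
    { es := es
      c27 := c27
      com := fun i j hij g r hg hr => hcom i j hij g hg r hr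
      sup := heq
      esQ := hQ.1
      cQ := hQ.2 }

omit ht hinj htc in
/-- members of `D` invert their group of twins modulo the centre -/
theorem inv_Qc {a u : X} (ha : a ∈ T0 D z) (hu : u ∈ Qc D a) : a * u * a⁻¹ * u ∈ zpowers x := by
  have E := es_T0 H ha
  have nrm : ∀ u ∈ Qc D a, a * u * a⁻¹ ∈ Qc D a := by
    intro u hu
    have h := conj_mem_Qc H.ts (g := a) hu
    rwa [mul_inv_cancel_right] at h
  induction hu using Subgroup.closure_induction with
  | mem y hy =>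
    obtain ⟨e, he, hw, rfl⟩ := hy
    have e1 : a * (a * e) * a⁻¹ * (a * e) = 1 := by
      rw [H.ts.inv_eq ha.1]
      calc a * (a * e) * a * (a * e) = (a * a) * e * (a * a) * e := by simp only [mul_assoc]
        _ = 1 := by rw [H.ts.sq a ha.1, one_mul, mul_one, H.ts.sq e he]
    rw [e1]
    exact one_mem _
  | one => rw [mul_one, mul_one, mul_inv_cancel]; exact one_mem _
  | mul u v hu hv ihu ihv =>
    -- `a u v a⁻¹ u v = (a u a⁻¹) (a v a⁻¹) u v`
    have hu' : u ∈ Qc D a := hu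
    have hv' : v ∈ Qc D a := hv
    have c1 := E.com _ (nrm v hv') u hu'
    have z1 := E.cen _ c1
    have e1 : a * (u * v) * a⁻¹ * (u * v) = (a * u * a⁻¹ * u) *
        ((u⁻¹ * ((a * v * a⁻¹) * u * (a * v * a⁻¹)⁻¹ * u⁻¹) * u) * (a * v * a⁻¹ * v)) := by group
    rw [e1]
    refine mul_mem ihu (mul_mem ?_ ihv)
    rw [← (z1 _ (inv_mem hu')).eq, mul_assoc, inv_mul_cancel, mul_one]
    exact c1
  | inv u hu ih =>
    have hu' : u ∈ Qc D a := hu
    have h1 := E.cen _ ih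
    have e1 : a * u⁻¹ * a⁻¹ * u⁻¹ = (u * (a * u * a⁻¹ * u) * u⁻¹)⁻¹ := by group
    rw [e1, ← (h1 u hu').eq, mul_inv_cancel_right]
    exact inv_mem ih

theorem inv_t : Inv (zpowers x) (fun i => Qc D (t i)) t where
  tz := by
    rintro i _ ⟨k, rfl⟩
    exact (H.cx _ (ht i).1).zpow_right k
  tR := fun i j hij u hu => comm_Qc (nb_t ht hinj htc hij) hu
  inv := fun i u hu => inv_Qc H (ht i) hu

/-- **the action of `s`** -/
theorem act_t [Finite X] (hc : Nat.card (Qc D (d 0)) = 27) (hx : Nat.card (zpowers x) = 3) {s f : X}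
    (hsx : Commute s x) (hst : ∀ i, Commute s (t i)) (hfs : Commute f s) (hf : ∀ i : Fin 5, f * t i * f⁻¹ = t (i + 1))
    (hsQ : s ∉ QQ D) : Act (zpowers x) (fun i => Qc D (t i)) t s := by
  have F := fam H ht hinj htc hc hx
  have T := inv_t H ht hinj htc
  have nrm : ∀ i, ∀ u ∈ Qc D (t i), s * u * s⁻¹ ∈ Qc D (t i) := by
    intro i u hu
    have h := conj_mem_Qc H.ts (g := s) hu
    rwa [(hst i).eq, mul_inv_cancel_right] at h
  have cz : ∀ ζ ∈ zpowers x, Commute s ζ := by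
    rintro _ ⟨k, rfl⟩
    exact hsx.zpow_right k
  -- trivial modulo `Z` on `R i` implies trivial on `R (i + 1)`
  have step : ∀ i : Fin 5, (∀ u ∈ Qc D (t i), u⁻¹ * (s * u * s⁻¹) ∈ zpowers x) →
      (∀ u ∈ Qc D (t (i + 1)), u⁻¹ * (s * u * s⁻¹) ∈ zpowers x) := by
    intro i h u hu
    have h1 : f⁻¹ * u * f ∈ Qc D (t i) := by
      have h2 := conj_mem_Qc H.ts (g := f⁻¹) hu
      rw [← hf i] at h2
      have e1 : f⁻¹ * (f * t i * f⁻¹) * f⁻¹⁻¹ = t i := by group
      have e2 : f⁻¹ * u * f⁻¹⁻¹ = f⁻¹ * u * f := by group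
      rwa [e1, e2] at h2
    have h2 := H.conj_Z f _ (h _ h1)
    have e : f * ((f⁻¹ * u * f)⁻¹ * (s * (f⁻¹ * u * f) * s⁻¹)) * f⁻¹ = u⁻¹ * (s * u * s⁻¹) := by
      calc f * ((f⁻¹ * u * f)⁻¹ * (s * (f⁻¹ * u * f) * s⁻¹)) * f⁻¹
          = u⁻¹ * ((f * s) * (f⁻¹ * u * f) * (f * s)⁻¹) := by group
        _ = u⁻¹ * ((s * f) * (f⁻¹ * u * f) * (s * f)⁻¹) := by rw [hfs.eq]
        _ = _ := by group
    rwa [e] at h2
  refine ⟨hst, nrm, cz, ?_⟩
  intro i
  by_contra hcon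
  push Not at hcon
  -- trivial on all
  have hall : ∀ j, ∀ u ∈ Qc D (t j), u⁻¹ * (s * u * s⁻¹) ∈ zpowers x := by
    have h1 := step i hcon
    have h2 := step _ h1
    have h3 := step _ h2
    have h4 := step _ h3
    have hcov : ∀ i j : Fin 5, j = i ∨ j = i + 1 ∨ j = i + 1 + 1 ∨ j = i + 1 + 1 + 1 ∨ j = i + 1 + 1 + 1 + 1 := by
      decide
    intro j
    rcases hcov i j with rfl | rfl | rfl | rfl | rfl
    · exact hcon
    · exact h1
    · exact h2
    · exact h3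
    · exact h4
  apply hsQ
  apply H.cent_le hc hx
  rw [Subgroup.mem_centralizer_iff]
  intro q hq
  obtain ⟨v, rfl⟩ := F.mem_range.1 hq
  refine (F.commute_Phi fun j => ?_).eq.symm
  -- as in `comm_Wi`
  obtain ⟨w, hw⟩ : ∃ w : X, w = v j := ⟨_, rfl⟩
  have hwm : w ∈ Qc D (t j) := by rw [hw]; exact (v j).2
  have hz := hall j w hwm
  have hz' := T.inv j w hwm
  rw [← hw]
  obtain ⟨ζ, hζ⟩ : ∃ ζ : X, ζ = w⁻¹ * (s * w * s⁻¹) := ⟨_, rfl⟩
  obtain ⟨ξ, hξ⟩ : ∃ ξ : X, ξ = t j * w * (t j)⁻¹ * w := ⟨_, rfl⟩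
  rw [← hζ] at hz
  rw [← hξ] at hz'
  have e1 : s * w * s⁻¹ = w * ζ := by rw [hζ]; group
  have e2 : t j * w * (t j)⁻¹ = ξ * w⁻¹ := by rw [hξ]; group
  have c1 : Commute ζ w := (F.es j).cen _ hz _ hwm
  have c2 : Commute ζ (t j) := (T.tz j _ hz).symm
  have c3 : Commute ξ s := (cz _ hz').symm
  have e3 : s * (t j * w * (t j)⁻¹) * s⁻¹ = t j * (s * w * s⁻¹) * (t j)⁻¹ := by
    have h := hst j
    calc s * (t j * w * (t j)⁻¹) * s⁻¹ = (s * t j) * w * (s * t j)⁻¹ := by group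
      _ = (t j * s) * w * (t j * s)⁻¹ := by rw [h.eq]
      _ = _ := by group
  have e4 : s * (ξ * w⁻¹) * s⁻¹ = ξ * w⁻¹ * ζ := by
    rw [← e2, e3, e1]
    calc t j * (w * ζ) * (t j)⁻¹ = t j * w * (ζ * (t j)⁻¹) := by group
      _ = t j * w * ((t j)⁻¹ * ζ) := by rw [c2.inv_right.eq]
      _ = _ := by group
  have e5 : s * (ξ * w⁻¹) * s⁻¹ = ξ * w⁻¹ * ζ⁻¹ := by
    calc s * (ξ * w⁻¹) * s⁻¹ = (s * ξ) * w⁻¹ * s⁻¹ := by group
      _ = (ξ * s) * w⁻¹ * s⁻¹ := by rw [c3.eq]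
      _ = ξ * (s * w * s⁻¹)⁻¹ := by group
      _ = ξ * (w * ζ)⁻¹ := by rw [e1]
      _ = ξ * (ζ⁻¹ * w⁻¹) := by rw [mul_inv_rev]
      _ = ξ * (w⁻¹ * ζ⁻¹) := by rw [c1.inv_inv.eq]
      _ = _ := by group
  have e6 : ζ = ζ⁻¹ := mul_left_cancel (e4.symm.trans e5)
  have e7 : ζ = 1 := by
    have h3 : ζ ^ 3 = 1 := (F.es j).cub _ ((F.es j).le hz)
    have h4 : ζ * ζ = 1 := by nth_rewrite 1 [e6]; exact inv_mul_cancel ζ
    rw [pow_succ, pow_two, h4, one_mul] at h3
    exact h3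
  show s * w = w * s
  rw [e7, mul_one] at e1
  exact mul_inv_eq_iff_eq_mul.1 e1

end Cfsg.Agent.H180.R7
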