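import Cfsg.Agent.H841.ExtA

/-!
# Central products of five extraspecial groups of order 27 (helper180, for the elements of order 9 of `Fi24'`)

`Fam Z Q R` : `Q` is the central product of the groups `R i` of order 27 with centre `Z`.
`s` acts on every `R i`, nontrivially modulo `Z`, and commutes with the involutions `t i`, `t i` inverts `R i` modulo `Z` and
commutes with the other `R j`. Then
* `Act.card_le` : for `g = q s`, `q ∈ Q`, with `g ^ 3 ≠ 1`, `s ^ 3 = 1`: `|C_Q(g)| ≤ 3 ^ 5`;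
* `Inv.mem_Z` : the elements of `Q` commuting with all `t i * t j` belong to `Z`.
-/

set_option autoImplicit false

namespace Cfsg.Agent.H180.R7

open Subgroup Cfsg.Agent.H841.Ext

variable {X : Type*} [Group X]

/-- central product of five groups of order 27 -/
structure Fam (Z Q : Subgroup X) (R : Fin 5 → Subgroup X) : Prop where
  es : ∀ i, ES Z (R i)
  c27 : ∀ i, Nat.card (R i) = 27
  com : Pairwise fun i j : Fin 5 => ∀ x y : X, x ∈ R i → y ∈ R j → Commute x y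
  sup : ⨆ i, R i = Q
  esQ : ES Z Q
  cQ : Nat.card Q = 3 ^ 11

namespace Fam

variable {Z Q : Subgroup X} {R : Fin 5 → Subgroup X}

/-- the product map -/
noncomputable def Phi (F : Fam Z Q R) : (∀ i, ↥(R i)) →* X := Subgroup.noncommPiCoprod F.com

variable (F : Fam Z Q R)

include F

theorem range_Phi : F.Phi.range = Q := by
  rw [show F.Phi.range = (Subgroup.noncommPiCoprod F.com).range from rfl, Subgroup.noncommPiCoprod_range, F.sup]

theorem Phi_apply (v : ∀ i, ↥(R i)) : F.Phi v = Finset.noncommProd Finset.univ (fun i => ((v i : ↥(R i)) : X))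
      (fun i _ j _ hij => F.com hij _ _ (v i).2 (v j).2) :=
  MonoidHom.noncommPiCoprod_apply (hcomm := Subgroup.commute_subtype_of_commute F.com) _ _

theorem Phi_single (i : Fin 5) (y : ↥(R i)) : F.Phi (Pi.mulSingle i y) = y :=
  Subgroup.noncommPiCoprod_mulSingle i y

theorem commute_Phi {y : X} {v : ∀ i, ↥(R i)} (h : ∀ i, Commute y (v i : X)) : Commute y (F.Phi v) := by
  rw [F.Phi_apply]
  exact Finset.noncommProd_commute _ _ _ _ fun i _ => h i

/-- splitting off a coordinate -/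
theorem Phi_split (v : ∀ i, ↥(R i)) (i : Fin 5) : ∃ w : ∀ i, ↥(R i), w i = 1 ∧ (∀ j, j ≠ i → w j = v j) ∧
    F.Phi v = (v i : X) * F.Phi w := by
  refine ⟨(Pi.mulSingle i (v i))⁻¹ * v, ?_, ?_, ?_⟩
  · rw [Pi.mul_apply, Pi.inv_apply, Pi.mulSingle_eq_same, inv_mul_cancel]
  · intro j hj
    rw [Pi.mul_apply, Pi.inv_apply, Pi.mulSingle_eq_of_ne hj, inv_one, one_mul]
  · rw [map_mul, map_inv, F.Phi_single, mul_inv_cancel_left]

/-- commuting with a member of `R i` -/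
theorem commute_iff {v : ∀ i, ↥(R i)} {i : Fin 5} {y : X} (hy : y ∈ R i) :
    Commute y (F.Phi v) ↔ Commute y (v i : X) := by
  obtain ⟨w, hw, hw', e⟩ := F.Phi_split v i
  have h1 : Commute y (F.Phi w) := by
    apply F.commute_Phi
    intro j
    by_cases hj : j = i
    · subst hj; rw [hw]; exact Commute.one_right _
    · exact F.com (Ne.symm hj) _ _ hy (w j).2
  rw [e]
  constructor
  · intro h
    have h2 := h.mul_right h1.inv_right
    rwa [mul_inv_cancel_right] at h2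
  · intro h
    exact h.mul_right h1

theorem mem_range {q : X} : q ∈ Q ↔ ∃ v, F.Phi v = q := by
  have h : q ∈ Q ↔ q ∈ F.Phi.range := by rw [F.range_Phi]
  rw [h]
  rfl

/-- `Phi v ∈ Z` -/
theorem mem_Z {v : ∀ i, ↥(R i)} (h : F.Phi v ∈ Z) (i : Fin 5) : (v i : X) ∈ Z := by
  apply (F.es i).nd _ (v i).2
  intro y hy
  exact ((F.commute_iff hy).1 ((F.es i).cen _ h y hy).symm).symm

theorem Phi_mem_Z {v : ∀ i, ↥(R i)} (h : ∀ i, (v i : X) ∈ Z) : F.Phi v ∈ Z := by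
  rw [F.Phi_apply]
  exact Subgroup.noncommProd_mem _ _ fun i _ => h i

theorem le_Q (i : Fin 5) : R i ≤ Q := by rw [← F.sup]; exact le_iSup R i

theorem Z_le : Z ≤ Q := (F.es 0).le.trans (F.le_Q 0)

theorem cen {ζ q : X} (h : ζ ∈ Z) (hq : q ∈ Q) : Commute ζ q := by
  obtain ⟨v, rfl⟩ := F.mem_range.1 hq
  exact F.commute_Phi fun i => (F.es i).cen _ h _ (v i).2

theorem finite (i : Fin 5) : Finite (R i) := Nat.finite_of_card_ne_zero (by rw [F.c27 i]; norm_num)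

theorem card_pi : Nat.card (∀ i, ↥(R i)) = 3 ^ 15 := by
  have := fun i => F.finite i
  rw [Nat.card_pi]
  simp only [F.c27]
  norm_num

theorem card_ker : Nat.card F.Phi.ker = 3 ^ 4 := by
  have h1 := Subgroup.card_eq_card_quotient_mul_card_subgroup F.Phi.ker
  have h2 := F.range_Phi
  rw [Nat.card_congr (QuotientGroup.quotientKerEquivRange F.Phi).toEquiv, h2, F.cQ, F.card_pi] at h1
  have h3 : (3 : ℕ) ^ 15 = 3 ^ 11 * 3 ^ 4 := by norm_num
  rw [h3] at h1
  exact (Nat.eq_of_mul_eq_mul_left (by positivity) h1).symm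

/-- the preimage of a subgroup of `Q` -/
theorem card_comap {C : Subgroup X} (hC : C ≤ Q) : Nat.card (C.comap F.Phi) = Nat.card C * 3 ^ 4 := by
  have h2 := F.range_Phi
  let f : ↥(C.comap F.Phi) →* ↥C := (F.Phi.comp (C.comap F.Phi).subtype).codRestrict C fun a => a.2
  have hf : Function.Surjective f := by
    rintro ⟨c, hc⟩
    obtain ⟨v, hv⟩ := F.mem_range.1 (hC hc)
    have hm : v ∈ C.comap F.Phi := by rw [Subgroup.mem_comap, hv]; exact hc
    exact ⟨⟨v, hm⟩, Subtype.ext (show F.Phi v = c from hv)⟩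
  have h1 := Subgroup.card_eq_card_quotient_mul_card_subgroup f.ker
  rw [Nat.card_congr (QuotientGroup.quotientKerEquivOfSurjective f hf).toEquiv] at h1
  rw [h1, ← F.card_ker]
  congr 1
  have hm : ∀ a : ↥F.Phi.ker, (a : ∀ i, ↥(R i)) ∈ C.comap F.Phi := by
    intro a
    have h : F.Phi (a : ∀ i, ↥(R i)) = 1 := a.2
    rw [Subgroup.mem_comap, h]; exact one_mem _
  have hk : ∀ a : ↥F.Phi.ker, (⟨a, hm a⟩ : ↥(C.comap F.Phi)) ∈ f.ker := fun a => Subtype.ext (a.2 : F.Phi a = 1)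
  exact Nat.card_congr
    { toFun := fun a => ⟨((a : ↥(C.comap F.Phi)) : ∀ i, ↥(R i)), congrArg Subtype.val (a.2 : f a = 1)⟩
      invFun := fun a => ⟨⟨a, hm a⟩, hk a⟩
      left_inv := fun a => rfl
      right_inv := fun a => rfl }

theorem conj_Phi {s : X} (h : ∀ i, ∀ u ∈ R i, s * u * s⁻¹ ∈ R i) (v : ∀ i, ↥(R i)) :
    s * F.Phi v * s⁻¹ = F.Phi (fun i => ⟨s * (v i : X) * s⁻¹, h i _ (v i).2⟩) := by
  rw [F.Phi_apply, F.Phi_apply]
  exact Finset.map_noncommProd Finset.univ _ _ (MulAut.conj s).toMonoidHom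

end Fam

/-- the action of `s` -/
structure Act (Z : Subgroup X) (R : Fin 5 → Subgroup X) (t : Fin 5 → X) (s : X) : Prop where
  st : ∀ i, Commute s (t i)
  nrm : ∀ i, ∀ u ∈ R i, s * u * s⁻¹ ∈ R i
  cz : ∀ ζ ∈ Z, Commute s ζ
  non : ∀ i, ∃ u ∈ R i, u⁻¹ * (s * u * s⁻¹) ∉ Z

/-- the action of the involutions `t i` -/
structure Inv (Z : Subgroup X) (R : Fin 5 → Subgroup X) (t : Fin 5 → X) : Prop where
  tz : ∀ i, ∀ ζ ∈ Z, Commute (t i) ζ
  tR : ∀ i j, i ≠ j → ∀ u ∈ R i, Commute (t j) u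
  inv : ∀ i, ∀ u ∈ R i, t i * u * (t i)⁻¹ * u ∈ Z

section

variable {Z Q : Subgroup X} {R : Fin 5 → Subgroup X} {t : Fin 5 → X} {s : X}

/-- the elements of `R i` fixed by `s` modulo `Z` -/
def Wi (F : Fam Z Q R) (s : X) (i : Fin 5) : Subgroup ↥(R i) where
  carrier := {u | (u : X)⁻¹ * (s * (u : X) * s⁻¹) ∈ Z}
  one_mem' := by
    show ((1 : ↥(R i)) : X)⁻¹ * (s * ((1 : ↥(R i)) : X) * s⁻¹) ∈ Z
    rw [Subgroup.coe_one, inv_one, one_mul, mul_one, mul_inv_cancel]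
    exact one_mem _
  mul_mem' := by
    intro a b ha hb
    show ((a * b : ↥(R i)) : X)⁻¹ * (s * ((a * b : ↥(R i)) : X) * s⁻¹) ∈ Z
    have h1 := (F.es i).cen _ ha (b : X)⁻¹ (inv_mem b.2)
    have e : ((a * b : ↥(R i)) : X)⁻¹ * (s * ((a * b : ↥(R i)) : X) * s⁻¹) =
        ((a : X)⁻¹ * (s * (a : X) * s⁻¹)) * ((b : X)⁻¹ * (s * (b : X) * s⁻¹)) := by
      rw [Subgroup.coe_mul]
      calc ((a : X) * b)⁻¹ * (s * ((a : X) * b) * s⁻¹)
          = (b : X)⁻¹ * ((a : X)⁻¹ * (s * (a : X) * s⁻¹)) * (s * (b : X) * s⁻¹) := by group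
        _ = ((a : X)⁻¹ * (s * (a : X) * s⁻¹)) * (b : X)⁻¹ * (s * (b : X) * s⁻¹) := by rw [h1.eq]
        _ = _ := by simp only [mul_assoc]
    rw [e]
    exact mul_mem ha hb
  inv_mem' := by
    intro a ha
    show ((a⁻¹ : ↥(R i)) : X)⁻¹ * (s * ((a⁻¹ : ↥(R i)) : X) * s⁻¹) ∈ Z
    have h1 := (F.es i).cen _ ha (a : X) a.2
    have h2 : s * (a : X) * s⁻¹ = (a : X) * ((a : X)⁻¹ * (s * (a : X) * s⁻¹)) := by group
    have e : ((a⁻¹ : ↥(R i)) : X)⁻¹ * (s * ((a⁻¹ : ↥(R i)) : X) * s⁻¹) = ((a : X)⁻¹ * (s * (a : X) * s⁻¹))⁻¹ := by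
      rw [Subgroup.coe_inv, inv_inv]
      calc (a : X) * (s * (a : X)⁻¹ * s⁻¹) = (a : X) * (s * (a : X) * s⁻¹)⁻¹ := by group
        _ = (a : X) * (((a : X)⁻¹ * (s * (a : X) * s⁻¹)) * (a : X))⁻¹ := by rw [h1.eq, ← h2]
        _ = _ := by group
    rw [e]
    exact inv_mem ha

theorem mem_Wi {F : Fam Z Q R} {i : Fin 5} {u : ↥(R i)} :
    u ∈ Wi F s i ↔ (u : X)⁻¹ * (s * (u : X) * s⁻¹) ∈ Z := Iff.rfl

variable (F : Fam Z Q R) (A : Act Z R t s)

include F A

theorem card_Wi_le (i : Fin 5) : Nat.card (Wi F s i) ≤ 9 := by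
  have := F.finite i
  have h1 : Nat.card (Wi F s i) ∣ 27 := by rw [← F.c27 i]; exact Subgroup.card_subgroup_dvd_card _
  have h2 : Nat.card (Wi F s i) ≠ 27 := by
    intro h
    have h3 : Wi F s i = ⊤ := Subgroup.eq_top_of_card_eq _ (by rw [h, F.c27 i])
    obtain ⟨u, hu, hn⟩ := A.non i
    apply hn
    have h4 : (⟨u, hu⟩ : ↥(R i)) ∈ Wi F s i := by rw [h3]; exact Subgroup.mem_top _
    exact mem_Wi.1 h4
  obtain ⟨c, hc⟩ := h1
  rcases Nat.lt_or_ge c 3 with h | h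
  · interval_cases c
    · omega
    · omega
    · omega
  · nlinarith

/-- the centralizer of `g = q s` -/
theorem mem_Wi_of_comm {q : X} (hq : q ∈ Q) {v : ∀ i, ↥(R i)} (hv : Commute (q * s) (F.Phi v)) (i : Fin 5) :
    v i ∈ Wi F s i := by
  have h1 := F.conj_Phi A.nrm v
  have hu : F.Phi v ∈ Q := F.mem_range.2 ⟨v, rfl⟩
  have hu' : s * F.Phi v * s⁻¹ ∈ Q := by rw [h1]; exact F.mem_range.2 ⟨_, rfl⟩
  have h2 : (F.Phi v)⁻¹ * (s * F.Phi v * s⁻¹) ∈ Z := by
    have h3 : F.Phi v = q * (s * F.Phi v * s⁻¹) * q⁻¹ := by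
      calc F.Phi v = (F.Phi v * (q * s)) * (q * s)⁻¹ := by group
        _ = ((q * s) * F.Phi v) * (q * s)⁻¹ := by rw [hv.eq]
        _ = _ := by group
    have h4 := F.esQ.com q hq _ (inv_mem hu')
    have e : (F.Phi v)⁻¹ * (s * F.Phi v * s⁻¹) = q * (s * F.Phi v * s⁻¹)⁻¹ * q⁻¹ * (s * F.Phi v * s⁻¹)⁻¹⁻¹ := by
      nth_rewrite 1 [h3]
      group
    rw [e]
    exact h4
  rw [h1, ← map_inv, ← map_mul] at h2
  exact F.mem_Z h2 i

/-- `s` centralizes the groups `Wi` -/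
theorem comm_Wi (T : Inv Z R t) {i : Fin 5} {w : ↥(R i)} (hw : w ∈ Wi F s i) : Commute s (w : X) := by
  have hz := mem_Wi.1 hw
  have hz' := T.inv i w w.2
  obtain ⟨ζ, hζ⟩ : ∃ ζ : X, ζ = (w : X)⁻¹ * (s * (w : X) * s⁻¹) := ⟨_, rfl⟩
  obtain ⟨ξ, hξ⟩ : ∃ ξ : X, ξ = t i * (w : X) * (t i)⁻¹ * (w : X) := ⟨_, rfl⟩
  rw [← hζ] at hz
  rw [← hξ] at hz'
  have e1 : s * (w : X) * s⁻¹ = w * ζ := by rw [hζ]; group
  have e2 : t i * (w : X) * (t i)⁻¹ = ξ * (w : X)⁻¹ := by rw [hξ]; group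
  have c1 : Commute ζ (w : X) := (F.es i).cen _ hz _ w.2
  have c2 : Commute ζ (t i) := (T.tz i _ hz).symm
  have c3 : Commute ξ s := (A.cz _ hz').symm
  have c4 : Commute ζ ξ := (F.es i).cen _ hz _ ((F.es i).le hz')
  have e3 : s * (t i * (w : X) * (t i)⁻¹) * s⁻¹ = t i * (s * (w : X) * s⁻¹) * (t i)⁻¹ := by
    have h := A.st i
    calc s * (t i * (w : X) * (t i)⁻¹) * s⁻¹ = (s * t i) * (w : X) * (s * t i)⁻¹ := by group
      _ = (t i * s) * (w : X) * (t i * s)⁻¹ := by rw [h.eq]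
      _ = _ := by group
  have e4 : s * (ξ * (w : X)⁻¹) * s⁻¹ = ξ * (w : X)⁻¹ * ζ := by
    rw [← e2, e3, e1]
    calc t i * ((w : X) * ζ) * (t i)⁻¹ = t i * (w : X) * (ζ * (t i)⁻¹) := by group
      _ = t i * (w : X) * ((t i)⁻¹ * ζ) := by rw [c2.inv_right.eq]
      _ = _ := by group
  have e5 : s * (ξ * (w : X)⁻¹) * s⁻¹ = ξ * (w : X)⁻¹ * ζ⁻¹ := by
    calc s * (ξ * (w : X)⁻¹) * s⁻¹ = (s * ξ) * (w : X)⁻¹ * s⁻¹ := by group
      _ = (ξ * s) * (w : X)⁻¹ * s⁻¹ := by rw [c3.eq]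
      _ = ξ * (s * (w : X) * s⁻¹)⁻¹ := by group
      _ = ξ * ((w : X) * ζ)⁻¹ := by rw [e1]
      _ = ξ * (ζ⁻¹ * (w : X)⁻¹) := by rw [mul_inv_rev]
      _ = ξ * ((w : X)⁻¹ * ζ⁻¹) := by rw [c1.inv_inv.eq]
      _ = _ := by group
  have e6 : ζ = ζ⁻¹ := mul_left_cancel (e4.symm.trans e5)
  have e7 : ζ = 1 := by
    have h3 : ζ ^ 3 = 1 := (F.es i).cub _ ((F.es i).le hz)
    have h4 : ζ * ζ = 1 := by nth_rewrite 1 [e6]; exact inv_mul_cancel ζ
    rw [pow_succ, pow_two, h4, one_mul] at h3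
    exact h3
  show s * (w : X) = (w : X) * s
  rw [e7, mul_one] at e1
  exact mul_inv_eq_iff_eq_mul.1 e1

/-- **the centralizer in `Q` of `g = q s`** -/
theorem Act.card_le (T : Inv Z R t) (hs3 : s ^ 3 = 1) {q : X} (hq : q ∈ Q) (hg : (q * s) ^ 3 ≠ 1) :
    Nat.card ↥(centralizer ({q * s} : Set X) ⊓ Q) ≤ 3 ^ 5 := by
  have hfinR := fun i => F.finite i
  by_contra hcon
  push Not at hcon
  set C : Subgroup X := centralizer ({q * s} : Set X) ⊓ Q with hC
  -- `|C|` is a power of 3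
  have hCdvd : Nat.card C ∣ 3 ^ 11 := by rw [← F.cQ]; exact Subgroup.card_dvd_of_le inf_le_right
  obtain ⟨k, hk, hk'⟩ := (Nat.dvd_prime_pow Nat.prime_three).1 hCdvd
  have hk6 : 6 ≤ k := by
    by_contra h
    have : 3 ^ k ≤ 3 ^ 5 := Nat.pow_le_pow_right (by norm_num) (by omega)
    omega
  have hC6 : 3 ^ 6 ≤ Nat.card C := by rw [hk']; exact Nat.pow_le_pow_right (by norm_num) hk6
  have hcom := F.card_comap (C := C) inf_le_right
  -- the injection
  have hmem : ∀ v : ↥(C.comap F.Phi), ∀ i, (v : ∀ i, ↥(R i)) i ∈ Wi F s i := by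
    intro v i
    apply mem_Wi_of_comm F A hq
    have h1 := (Subgroup.mem_comap.1 v.2).1
    exact (show Commute (F.Phi (v : ∀ i, ↥(R i))) (q * s) from mem_centralizer_singleton_iff.1 h1).symm
  let f : ↥(C.comap F.Phi) → ∀ i, ↥(Wi F s i) := fun v i => ⟨(v : ∀ i, ↥(R i)) i, hmem v i⟩
  have hf : Function.Injective f := by
    intro v w hvw
    apply Subtype.ext
    funext i
    exact congrArg Subtype.val (congrFun hvw i)
  have hcard1 : Nat.card ↥(C.comap F.Phi) ≤ Nat.card (∀ i, ↥(Wi F s i)) :=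
    Nat.card_le_card_of_injective f hf
  have hcard2 : Nat.card (∀ i, ↥(Wi F s i)) ≤ 9 ^ 5 := by
    rw [Nat.card_pi]
    have := Finset.prod_le_pow_card Finset.univ (fun i => Nat.card (Wi F s i)) 9 fun i _ => card_Wi_le F A i
    simpa using this
  have hcard3 : 9 ^ 5 ≤ Nat.card ↥(C.comap F.Phi) := by
    rw [hcom]
    calc (9 : ℕ) ^ 5 = 3 ^ 6 * 3 ^ 4 := by norm_num
      _ ≤ _ := Nat.mul_le_mul_right _ hC6
  have hbij : Function.Bijective f := by
    rw [Nat.bijective_iff_injective_and_card]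
    exact ⟨hf, by omega⟩
  -- the orders of the groups `Wi`
  have hW9 : ∀ i, Nat.card (Wi F s i) = 9 := by
    intro i
    apply le_antisymm (card_Wi_le F A i)
    by_contra h
    push Not at h
    have h1 : Nat.card (∀ i, ↥(Wi F s i)) = Nat.card (Wi F s i) *
        ∏ j ∈ Finset.univ.erase i, Nat.card (Wi F s j) := by
      rw [Nat.card_pi]
      exact (Finset.mul_prod_erase Finset.univ (fun j => Nat.card (Wi F s j)) (Finset.mem_univ i)).symm
    have h2 : ∏ j ∈ Finset.univ.erase i, Nat.card (Wi F s j) ≤ 9 ^ 4 := by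
      have := Finset.prod_le_pow_card (Finset.univ.erase i) (fun i => Nat.card (Wi F s i)) 9
        fun i _ => card_Wi_le F A i
      rw [Finset.card_erase_of_mem (Finset.mem_univ i), Finset.card_univ, Fintype.card_fin] at this
      exact this
    have h3 : Nat.card (Wi F s i) * ∏ j ∈ Finset.univ.erase i, Nat.card (Wi F s j) ≤ 8 * 9 ^ 4 :=
      Nat.mul_le_mul (by omega) h2
    have h4 : (8 : ℕ) * 9 ^ 4 < 9 ^ 5 := by norm_num
    omega
  -- `g` centralizes `Wi`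
  have hgW : ∀ i, ∀ w ∈ Wi F s i, Commute (q * s) (w : X) := by
    intro i w hw
    obtain ⟨v, hv⟩ := hbij.2 (Pi.mulSingle i ⟨w, hw⟩)
    have e : (v : ∀ i, ↥(R i)) = Pi.mulSingle i w := by
      funext j
      have h1 := congrArg Subtype.val (congrFun hv j)
      by_cases hj : j = i
      · subst hj
        rw [Pi.mulSingle_eq_same] at h1 ⊢
        exact h1
      · rw [Pi.mulSingle_eq_of_ne hj] at h1 ⊢
        exact h1
    have h1 := (Subgroup.mem_comap.1 v.2).1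
    rw [e, F.Phi_single] at h1
    exact (show Commute (w : X) (q * s) from mem_centralizer_singleton_iff.1 h1).symm
  -- `q` centralizes `Wi`
  have hqW : ∀ i, ∀ w ∈ Wi F s i, Commute q (w : X) := by
    intro i w hw
    have h1 := (hgW i w hw).mul_left (comm_Wi F A T hw).inv_left
    rwa [mul_inv_cancel_right] at h1
  obtain ⟨r, rfl⟩ := F.mem_range.1 hq
  have hr : ∀ i, r i ∈ Wi F s i := by
    intro i
    by_contra hn
    apply hn
    have hc : ∀ w ∈ Wi F s i, Commute (w : X) (r i : X) := fun w hw =>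
      (F.commute_iff w.2).1 (hqW i w hw).symm
    have h1 : Wi F s i ⊔ zpowers (r i) = ⊤ := by
      apply Subgroup.eq_top_of_card_eq
      have h2 : Nat.card ↥(Wi F s i ⊔ zpowers (r i)) ∣ 27 := by
        rw [← F.c27 i]; exact Subgroup.card_subgroup_dvd_card _
      have h3 : Nat.card (Wi F s i) ∣ Nat.card ↥(Wi F s i ⊔ zpowers (r i)) :=
        Subgroup.card_dvd_of_le le_sup_left
      have h4 : Nat.card ↥(Wi F s i ⊔ zpowers (r i)) ≠ 9 := by
        intro h5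
        apply hn
        have h6 : Wi F s i = Wi F s i ⊔ zpowers (r i) :=
          Subgroup.eq_of_le_of_card_ge le_sup_left (by rw [h5, hW9 i])
        rw [h6]
        exact Subgroup.mem_sup_right (mem_zpowers _)
      rw [hW9 i] at h3
      rw [F.c27 i]
      obtain ⟨a, ha⟩ := h3
      rw [ha] at h2 h4 ⊢
      have h7 : a ∣ 3 := by
        have : 9 * a ∣ 9 * 3 := h2
        exact Nat.dvd_of_mul_dvd_mul_left (by norm_num) this
      rcases (Nat.dvd_prime Nat.prime_three).1 h7 with rfl | rfl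
      · exact absurd rfl h4
      · rfl
    have h2 : (⊤ : Subgroup ↥(R i)) ≤ centralizer {r i} := by
      rw [← h1]
      apply sup_le
      · intro w hw
        rw [mem_centralizer_singleton_iff]
        exact Subtype.ext (hc w hw).eq
      · rw [zpowers_le, mem_centralizer_singleton_iff]
    have h3 : (r i : X) ∈ Z := by
      apply (F.es i).nd _ (r i).2
      intro y hy
      have h4 := mem_centralizer_singleton_iff.1 (h2 (Subgroup.mem_top (⟨y, hy⟩ : ↥(R i))))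
      exact (congrArg Subtype.val h4).symm
    rw [mem_Wi, (A.cz _ h3).eq, mul_inv_cancel_right, inv_mul_cancel]
    exact one_mem _
  have hsq : Commute s (F.Phi r) := F.commute_Phi fun i => comm_Wi F A T (hr i)
  apply hg
  rw [hsq.symm.mul_pow, F.esQ.cub _ hq, hs3, one_mul]

omit A in
/-- **the elements of `Q` commuting with all products `t i t j`** -/
theorem Inv.mem_Z (T : Inv Z R t) {q : X} (hq : q ∈ Q) (h : ∀ i j, i ≠ j → Commute q (t i * t j)) : q ∈ Z := by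
  obtain ⟨v, rfl⟩ := F.mem_range.1 hq
  apply F.Phi_mem_Z
  intro i
  obtain ⟨j, hij⟩ : ∃ j : Fin 5, i ≠ j := ⟨i + 1, by revert i; decide⟩
  -- `t i` normalizes the groups
  have nr : ∀ i j : Fin 5, ∀ u ∈ R j, t i * u * (t i)⁻¹ ∈ R j := by
    intro i j u hu
    by_cases hj : j = i
    · subst hj
      have h1 := (F.es j).le (T.inv j u hu)
      have h2 := mul_mem h1 (inv_mem hu)
      rwa [mul_inv_cancel_right] at h2
    · rw [(T.tR j i hj u hu).eq, mul_inv_cancel_right]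
      exact hu
  have nb : ∀ k : Fin 5, ∀ u ∈ R k, (t i * t j) * u * (t i * t j)⁻¹ ∈ R k := by
    intro k u hu
    have h1 := nr i k _ (nr j k u hu)
    have e : t i * (t j * u * (t j)⁻¹) * (t i)⁻¹ = (t i * t j) * u * (t i * t j)⁻¹ := by group
    rwa [e] at h1
  have h1 := F.conj_Phi nb v
  have h2 : (t i * t j) * F.Phi v * (t i * t j)⁻¹ = F.Phi v := by
    rw [← (h i j hij).eq, mul_inv_cancel_right]
  rw [h2] at h1
  have h3 : F.Phi (v⁻¹ * fun k => ⟨(t i * t j) * (v k : X) * (t i * t j)⁻¹, nb k _ (v k).2⟩) ∈ Z := by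
    rw [map_mul, ← h1, map_inv, inv_mul_cancel]
    exact one_mem _
  have h4 : (v i : X)⁻¹ * ((t i * t j) * (v i : X) * (t i * t j)⁻¹) ∈ Z := F.mem_Z h3 i
  have h5 : (t i * t j) * (v i : X) * (t i * t j)⁻¹ = t i * (v i : X) * (t i)⁻¹ := by
    have h6 := T.tR i j hij _ (v i).2
    calc (t i * t j) * (v i : X) * (t i * t j)⁻¹ = t i * (t j * (v i : X)) * (t j)⁻¹ * (t i)⁻¹ := by group
      _ = t i * ((v i : X) * t j) * (t j)⁻¹ * (t i)⁻¹ := by rw [h6.eq]
      _ = _ := by group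
  rw [h5] at h4
  have h6 := T.inv i _ (v i).2
  -- `v⁻¹ (v^t) = v⁻¹ ξ v⁻¹`
  have h7 : (v i : X)⁻¹ * (t i * (v i : X) * (t i)⁻¹) = (t i * (v i : X) * (t i)⁻¹ * (v i : X)) * ((v i : X)⁻¹ * (v i : X)⁻¹) := by
    have h8 := (F.es i).cen _ h6 _ (inv_mem (v i).2)
    calc (v i : X)⁻¹ * (t i * (v i : X) * (t i)⁻¹)
        = ((v i : X)⁻¹ * (t i * (v i : X) * (t i)⁻¹ * (v i : X))) * (v i : X)⁻¹ := by group
      _ = ((t i * (v i : X) * (t i)⁻¹ * (v i : X)) * (v i : X)⁻¹) * (v i : X)⁻¹ := by rw [h8.eq]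
      _ = _ := by group
  rw [h7] at h4
  have h8 : (v i : X)⁻¹ * (v i : X)⁻¹ ∈ Z := by
    have := mul_mem (inv_mem h6) h4
    rwa [inv_mul_cancel_left] at this
  have h9 : (v i : X)⁻¹ * (v i : X)⁻¹ = v i := by
    have h10 := (F.es i).cub _ (v i).2
    rw [pow_succ, pow_two] at h10
    calc (v i : X)⁻¹ * (v i : X)⁻¹ = (v i : X)⁻¹ * (v i : X)⁻¹ * ((v i : X) * (v i : X) * (v i : X)) := by rw [h10, mul_one]
      _ = _ := by group
  rwa [h9] at h8

end

end Cfsg.Agent.H180.R7
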